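import Mathlib
import Cfsg.Agent.Lib.Helper22.AG.Defs

/-!
S3072 (AG, helper22), package [COMP]: the relation `RR` is closed under composition.
-/

set_option autoImplicit false

namespace Cfsg.Agent.Lib.Helper79.AG

open Cfsg Cfsg.Agent.Lib.Helper33 Cfsg.Agent.Lib.Helper22.AG

universe u

/-- Right conjugation by an element of the centralizer fixes the set. -/
theorem rconj_centralizer {G : Type u} [Group G] (A : Subgroup G) (c : G)
    (hc : c ∈ Subgroup.centralizer (A : Set G)) : rconj c (A : Set G) = (A : Set G) := by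
  ext x
  rw [mem_rconj]
  rw [Subgroup.mem_centralizer_iff] at hc
  constructor
  · intro h
    have h1 := hc _ h
    have h2 : x = c⁻¹ * (c * x * c⁻¹ * c) := by group
    rw [h2, h1]
    have h3 : c⁻¹ * (c * (c * x * c⁻¹)) = c * x * c⁻¹ := by group
    rw [h3]; exact h
  · intro h
    have h1 := hc x h
    have h2 : c * x * c⁻¹ = x := by rw [← h1]; group
    rw [h2]; exact h

/-- The conjugate `g⁻¹ A g` for `g = c * u * y`, `c ∈ C(A)`. -/
theorem coe_cj_inv_rr {G : Type u} [Group G] (A : Subgroup G) (c u y : G)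
    (hc : c ∈ Subgroup.centralizer (A : Set G)) :
    ((cj (c * u * y)⁻¹ A : Subgroup G) : Set G) = rconj y (rconj u (A : Set G)) := by
  rw [coe_cj_inv_eq_rconj, rconj_mul, rconj_mul, rconj_centralizer A c hc]

/-- [COMP]. -/
theorem pkgComp (hConjL : PkgConjL.{u}) : PkgComp.{u} := by
  intro G _ _ p _ P A g h hg hh
  obtain ⟨l, c, y, hc, hy, rfl, hl⟩ := hg
  obtain ⟨l', c', y', hc', hy', rfl, hl'⟩ := hh
  rw [coe_cj_inv_rr A c (gprod l) y hc] at hl'
  obtain ⟨h1, h2⟩ := hConjL P y l' (rconj (gprod l) (A : Set G)) hy hl'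
  refine ⟨l ++ gConj y l', (c * gprod l * y) * c' * (c * gprod l * y)⁻¹ * c, y * y', ?_, ?_, ?_, ?_⟩
  · apply Subgroup.mul_mem _ ?_ hc
    have h3 : (c * gprod l * y) * c' * (c * gprod l * y)⁻¹ ∈
        cj (c * gprod l * y)
          (Subgroup.centralizer ((cj (c * gprod l * y)⁻¹ A : Subgroup G) : Set G)) :=
      conj_mem_cj hc'
    rw [cj_centralizer, cj_cj_inv] at h3
    exact h3
  · exact Subgroup.mul_mem _ hy hy'
  · rw [gprod_append, h2]; group
  · rw [gChain_append]; exact ⟨hl, h1⟩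

end Cfsg.Agent.Lib.Helper79.AG
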