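import Mathlib
import Cfsg.Agent.Lib.Helper22.AG.Defs
import Cfsg.Agent.Lib.Helper79.AG.Comp

/-!
S3072 (AG, helper22), package [INV]: the relation `RR` is closed under inversion.
-/

set_option autoImplicit false

namespace Cfsg.Agent.Lib.Helper79.AG

open Cfsg Cfsg.Agent.Lib.Helper33 Cfsg.Agent.Lib.Helper22.AG

universe u

/-- [INV]. -/
theorem pkgInv (hConjL : PkgConjL.{u}) (hRev : PkgRev.{u}) : PkgInv.{u} := by
  intro G _ _ p _ P A g hg
  obtain ⟨l, c, y, hc, hy, rfl, hl⟩ := hg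
  obtain ⟨r1, r2⟩ := hRev p P l (A : Set G) hl
  have hy' : y⁻¹ ∈ Subgroup.normalizer (P : Set G) := inv_mem hy
  have r1' : GChain p P (rconj y⁻¹ ((cj (c * gprod l * y)⁻¹ A : Subgroup G) : Set G))
      (gRev l) := by
    rw [coe_cj_inv_rr A c (gprod l) y hc, rconj_inv_rconj]; exact r1
  obtain ⟨h1, h2⟩ := hConjL P y⁻¹ (gRev l) _ hy' r1'
  refine ⟨gConj y⁻¹ (gRev l), (c * gprod l * y)⁻¹ * c⁻¹ * (c * gprod l * y), y⁻¹, ?_, hy', ?_, h1⟩
  · have h3 : (c * gprod l * y)⁻¹ * c⁻¹ * ((c * gprod l * y)⁻¹)⁻¹ ∈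
        cj (c * gprod l * y)⁻¹ (Subgroup.centralizer (A : Set G)) :=
      conj_mem_cj (inv_mem hc)
    rw [cj_centralizer, inv_inv] at h3
    exact h3
  · rw [h2, r2]; group

end Cfsg.Agent.Lib.Helper79.AG
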